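import Groth.Agent.Flat2F.WeightLoc
import Groth.Agent.Flat2F.MaxLocus

/-!
Composition of weightings.
-/

set_option autoImplicit false
universe u

namespace Groth.Agent.Old.H15.WeightComp

open AlgebraicGeometry CategoryTheory Limits
open Groth.Agent.Flat2F
open FibreIntegral GeomPts ResSplit Split WeightLoc FibrePow Topology

variable {X Y Z : Scheme.{u}}

/-- The fibre integral is constant near `z`. -/
def LC (π : X ⟶ Z) (w : X → ℤ) (z : Z) : Prop :=
  ∃ N : Z.Opens, z ∈ N ∧ ∀ z' ∈ N, MoreMor.fibreIntegral π w z' = MoreMor.fibreIntegral π w z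

lemma isLocallyConstant_of_LC (π : X ⟶ Z) (w : X → ℤ) (h : ∀ z, LC π w z) :
    IsLocallyConstant (MoreMor.fibreIntegral π w) := by
  rw [IsLocallyConstant.iff_exists_open]
  intro z
  obtain ⟨N, hz, hN⟩ := h z
  exact ⟨N, N.2, hz, hN⟩

lemma LC_of_isLocallyConstant {π : X ⟶ Z} {w : X → ℤ}
    (h : IsLocallyConstant (MoreMor.fibreIntegral π w)) (z : Z) : LC π w z := by
  rw [IsLocallyConstant.iff_exists_open] at h
  obtain ⟨N, hN, hz, H⟩ := h z
  exact ⟨⟨N, hN⟩, hz, H⟩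

lemma LC.of_etale {X' Z' : Scheme.{u}} {π : X ⟶ Z} [LocallyQuasiFinite π] {π' : X' ⟶ Z'}
    {h : X' ⟶ X} {q : Z' ⟶ Z} (hc : IsPullback h π' π q) [Etale q] {w : X → ℤ} {z' : Z'}
    (H : LC π' (fun x => w (h x)) z') {z : Z} (hz : q z' = z) : LC π w z := by
  subst hz
  obtain ⟨N, hz, hN⟩ := H
  refine ⟨⟨q '' N, q.isOpenMap N N.2⟩, ⟨z', hz, rfl⟩, ?_⟩
  rintro _ ⟨n, hn, rfl⟩
  have h2 := fun v' => fibreIntegral_baseChange π π' h q hc w v'
  rw [← h2, ← h2]
  exact hN n hn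

/-- Fubini for fibre integrals along finite morphisms. -/
theorem fibreIntegral_comp (f : X ⟶ Y) (g : Y ⟶ Z) [IsFinite f] [IsFinite g] (wf : X → ℤ)
    (wg : Y → ℤ) (z : Z) :
    MoreMor.fibreIntegral (f ≫ g) (fun x => wf x * wg (f x)) z =
      MoreMor.fibreIntegral g (fun y => MoreMor.fibreIntegral f wf y * wg y) z := by
  obtain ⟨K, _, _, ω, rfl⟩ := exists_geometric_point Z z
  rw [fibreIntegral_top, fibreIntegral_top]
  have h1 : L (f ≫ g) ω ⊤ = ⋃ t ∈ L g ω ⊤, L f t ⊤ := by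
    ext s
    simp only [Set.mem_iUnion, exists_prop]
    constructor
    · intro hs
      exact ⟨s ≫ f, ⟨by rw [Category.assoc]; exact hs.1, trivial⟩, rfl, trivial⟩
    · rintro ⟨t, ht, hs⟩
      refine ⟨?_, trivial⟩
      rw [← Category.assoc, hs.1, ht.1]
  rw [h1, finsum_mem_biUnion]
  · refine finsum_mem_congr rfl fun t ht => ?_
    rw [fibreIntegral_top, finsum_mem_mul]
    refine finsum_mem_congr rfl fun s hs => ?_
    rw [← Scheme.Hom.comp_apply, hs.1]
  · intro t ht t' ht' htt'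
    rw [Function.onFun, Set.disjoint_left]
    intro s hs hs'
    exact htt' (hs.1.symm.trans hs'.1)
  · exact finite_L_top g ω
  · intro t ht
    exact finite_L_top f t

/-- Local constancy near `z` when there is one point of `Y` over `z`. -/
theorem LC_of_finite (f : X ⟶ Y) (g : Y ⟶ Z) [IsFinite f] [IsFinite g] {wf : X → ℤ}
    {wg : Y → ℤ} (hf : IsLocallyConstant (MoreMor.fibreIntegral f wf))
    (hg : IsLocallyConstant (MoreMor.fibreIntegral g wg)) (y : Y)
    (huniq : ∀ y', g y' = g y → y' = y) :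
    LC (f ≫ g) (fun x => wf x * wg (f x)) (g y) := by
  have hC : IsClosed {y' | MoreMor.fibreIntegral f wf y' ≠ MoreMor.fibreIntegral f wf y} := by
    have := hf.isClopen_fiber (MoreMor.fibreIntegral f wf y)
    exact this.2.isClosed_compl
  have hgC := g.isClosedMap _ hC
  let N₁ : Set Z := (g '' {y' | MoreMor.fibreIntegral f wf y' ≠ MoreMor.fibreIntegral f wf y})ᶜ
  let N₂ : Set Z := {z' | MoreMor.fibreIntegral g wg z' = MoreMor.fibreIntegral g wg (g y)}
  have key : ∀ z' ∈ N₁, MoreMor.fibreIntegral (f ≫ g) (fun x => wf x * wg (f x)) z' =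
      MoreMor.fibreIntegral f wf y * MoreMor.fibreIntegral g wg z' := by
    intro z' hz'
    rw [fibreIntegral_comp]
    unfold MoreMor.fibreIntegral
    rw [mul_finsum]
    refine finsum_congr fun u => ?_
    have h1 : MoreMor.fibreIntegral f wf u.1 = MoreMor.fibreIntegral f wf y := by
      by_contra h
      exact hz' ⟨u.1, h, u.2⟩
    have h2 : MoreMor.fibreIntegral f wf u.1 * wg u.1 = MoreMor.fibreIntegral f wf y * wg u.1 := by
      rw [h1]
    rw [← mul_assoc]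
    exact congrArg₂ (· * ·) h2 rfl
  have hz₁ : g y ∈ N₁ := by
    rintro ⟨y', hy', h⟩
    exact hy' (by rw [huniq y' h])
  refine ⟨⟨N₁ ∩ N₂, hgC.isOpen_compl.inter (hg.isOpen_fiber _)⟩, ⟨hz₁, rfl⟩, ?_⟩
  rintro z' ⟨hz', hz''⟩
  rw [key z' hz', key _ hz₁]
  congr 1

lemma isFinite_comp_isoImage {W V P : Scheme.{u}} (m : W ⟶ P) [IsOpenImmersion m] (p : P ⟶ V)
    (U : W.Opens) : IsPullback (m.isoImage U).hom (U.ι ≫ m ≫ p) ((m ''ᵁ U).ι ≫ p) (𝟙 V) := by
  refine IsPullback.of_horiz_isIso ⟨?_⟩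
  rw [Scheme.Hom.isoImage_hom_ι_assoc, Category.comp_id]

/-- Weightings restrict to opens of the source. -/
theorem isWeighting_open {f : X ⟶ Y} [LocallyQuasiFinite f] {w : X → ℤ}
    (hf : MoreMor.IsWeighting f w) {W : Scheme.{u}} (j : W ⟶ X) [IsOpenImmersion j] :
    MoreMor.IsWeighting (j ≫ f) (fun x => w (j x)) := by
  intro V g _ U hU
  let m : pullback (j ≫ f) g ⟶ pullback f g :=
    pullback.lift (pullback.fst _ _ ≫ j) (pullback.snd _ _) (by rw [Category.assoc, pullback.condition])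
  have hm1 : m ≫ pullback.fst f g = pullback.fst _ _ ≫ j := pullback.lift_fst _ _ _
  have hm2 : m ≫ pullback.snd f g = pullback.snd _ _ := pullback.lift_snd _ _ _
  have hm : IsPullback m (pullback.fst (j ≫ f) g) (pullback.fst f g) j := by
    refine IsPullback.of_right (h₁₂ := pullback.snd f g) (h₂₂ := f) (v₁₃ := g) ?_ hm1
      (IsPullback.of_hasPullback f g).flip
    rw [hm2]
    exact (IsPullback.of_hasPullback (j ≫ f) g).flip
  have : IsOpenImmersion m := MorphismProperty.of_isPullback hm.flip ‹_›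
  have hU' : IsFinite (U.ι ≫ m ≫ pullback.snd f g) := by rw [hm2]; exact hU
  have hfin : IsFinite ((m ''ᵁ U).ι ≫ pullback.snd f g) := isFinite_image_ι m _ U
  have h1 := hf V g (m ''ᵁ U) hfin
  convert h1 using 1
  ext v
  have h2 := fibreIntegral_baseChange _ _ _ _ (isFinite_comp_isoImage m (pullback.snd f g) U)
    (fun u => w (pullback.fst f g ((m ''ᵁ U).ι u))) v
  rw [show (𝟙 V : V ⟶ V) v = v from rfl] at h2
  rw [← h2, hm2]
  congr 1
  ext u
  simp only [Function.comp_apply]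
  rw [← Scheme.Hom.comp_apply, ← Scheme.Hom.comp_apply, ← Scheme.Hom.comp_apply,
    ← Scheme.Hom.comp_apply, Scheme.Hom.isoImage_hom_ι_assoc, hm1]

/-- Weightings corestrict. -/
theorem isWeighting_of_comp_mono {f : X ⟶ Y} [LocallyQuasiFinite f] {w : X → ℤ}
    {W : Scheme.{u}} {j : Y ⟶ W} [Etale j] [Mono j]
    (hf : MoreMor.IsWeighting (f ≫ j) w) : MoreMor.IsWeighting f w :=
  isWeighting_of_isPullback (h := 𝟙 X) (f := f ≫ j) (g := j) (f' := f)
    (by simpa using (IsPullback.id_horiz f).paste_vert (IsKernelPair.id_of_mono j)) hf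

/-- The fibre integral of a weighting along a finite morphism is locally constant. -/
theorem isLocallyConstant_of_isFinite {f : X ⟶ Y} [IsFinite f] {w : X → ℤ}
    (hf : MoreMor.IsWeighting f w) : IsLocallyConstant (MoreMor.fibreIntegral f w) := by
  have h0 : (⊤ : X.Opens).ι = X.topIso.hom := rfl
  have h1 : IsFinite ((⊤ : X.Opens).ι ≫ f) := by rw [h0]; infer_instance
  have h2 := isLocallyConstant_of_isPullback (IsPullback.id_horiz f) hf ⊤
  convert h2 using 1
  ext v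
  have h5 : IsIso (⊤ : X.Opens).ι := by rw [h0]; infer_instance
  have h3 : IsPullback (⊤ : X.Opens).ι ((⊤ : X.Opens).ι ≫ f) f (𝟙 Y) :=
    IsPullback.of_horiz_isIso ⟨by simp⟩
  have h4 := fibreIntegral_baseChange _ _ _ _ h3 w v
  exact h4.symm

/-- Local constancy near `z` in terms of an open of `Y` with one point over `z`. -/
theorem LC_of_uniq (f : X ⟶ Y) (g : Y ⟶ Z) [LocallyQuasiFinite f] [LocallyQuasiFinite g]
    {wf : X → ℤ} {wg : Y → ℤ} (hf : MoreMor.IsWeighting f wf) (hg : MoreMor.IsWeighting g wg)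
    [IsFinite (f ≫ g)] (B : Y.Opens) [IsFinite (B.ι ≫ g)] (z : Z) (hB : Uniq g z B)
    (hX : ∀ x, g (f x) = z → f x ∈ B) : LC (f ≫ g) (fun x => wf x * wg (f x)) z := by
  have hcl : IsClosed ((f ⁻¹ᵁ B : X.Opens) : Set X)ᶜ := (f ⁻¹ᵁ B).2.isClosed_compl
  have hcl' := (f ≫ g).isClosedMap _ hcl
  let N : Z.Opens := ⟨((f ≫ g) '' ((f ⁻¹ᵁ B : X.Opens) : Set X)ᶜ)ᶜ, hcl'.isOpen_compl⟩
  have hzN : z ∈ N := by
    rintro ⟨x, hx, hxz⟩
    rw [Scheme.Hom.comp_apply] at hxz
    exact hx (hX x hxz)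
  have hN : ∀ x, g (f x) ∈ N → f x ∈ B := by
    intro x hx
    by_contra h
    exact hx ⟨x, h, by rw [Scheme.Hom.comp_apply]⟩
  let X₁ : X.Opens := (f ≫ g) ⁻¹ᵁ N
  let B₁ : (B : Scheme.{u}).Opens := (B.ι ≫ g) ⁻¹ᵁ N
  let j : (B₁ : Scheme.{u}) ⟶ Y := B₁.ι ≫ B.ι
  have hj : Set.range (X₁.ι ≫ f) ⊆ Set.range j := by
    rintro _ ⟨x, rfl⟩
    have hx : g (f (X₁.ι x)) ∈ N := by
      have := ι_apply_mem X₁ x
      change (f ≫ g) (X₁.ι x) ∈ N at this
      rwa [Scheme.Hom.comp_apply] at this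
    refine ⟨⟨⟨f (X₁.ι x), hN _ hx⟩, ?_⟩, ?_⟩
    · change (B.ι ≫ g) ⟨f (X₁.ι x), hN _ hx⟩ ∈ N
      rw [Scheme.Hom.comp_apply]
      exact hx
    · rw [Scheme.Hom.comp_apply]
      rfl
  let f₁ : (X₁ : Scheme.{u}) ⟶ B₁ := IsOpenImmersion.lift j (X₁.ι ≫ f) hj
  have hf₁ : f₁ ≫ j = X₁.ι ≫ f := IsOpenImmersion.lift_fac _ _ _
  let g₁ : (B₁ : Scheme.{u}) ⟶ N := (B.ι ≫ g) ∣_ N
  have hg₁ : g₁ ≫ N.ι = j ≫ g := by
    rw [morphismRestrict_ι, Category.assoc]
  have hfg : f₁ ≫ g₁ = (f ≫ g) ∣_ N := by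
    rw [← cancel_mono N.ι, morphismRestrict_ι, Category.assoc, hg₁, reassoc_of% hf₁]
  have hfin₁ : IsFinite g₁ := inferInstance
  have hfin₂ : IsFinite (f₁ ≫ g₁) := by rw [hfg]; infer_instance
  have hfin₃ : IsFinite f₁ := .of_comp f₁ g₁
  have hw₁ : MoreMor.IsWeighting f₁ (fun x => wf (X₁.ι x)) := by
    refine isWeighting_of_comp_mono (j := j) ?_
    rw [hf₁]
    exact isWeighting_open hf X₁.ι
  have hw₂ : MoreMor.IsWeighting g₁ (fun y => wg (j y)) :=
    isWeighting_of_isPullback (isPullback_morphismRestrict (B.ι ≫ g) N).flip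
      (isWeighting_open hg B.ι)
  obtain ⟨y, hyB, hyz⟩ := hB.exists
  let y₁ : B₁ := ⟨⟨y, hyB⟩, by
    change (B.ι ≫ g) ⟨y, hyB⟩ ∈ N
    rw [Scheme.Hom.comp_apply]
    change g y ∈ N
    rw [hyz]; exact hzN⟩
  have hy₁ : g₁ y₁ = ⟨z, hzN⟩ := by
    apply N.ι.isOpenEmbedding.injective
    rw [← Scheme.Hom.comp_apply, hg₁, Scheme.Hom.comp_apply]
    exact hyz
  have hlc₁ : IsLocallyConstant (MoreMor.fibreIntegral f₁ (fun x => wf (X₁.ι x))) :=
    isLocallyConstant_of_isFinite hw₁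
  have hlc₂ : IsLocallyConstant (MoreMor.fibreIntegral g₁ (fun y => wg (j y))) :=
    isLocallyConstant_of_isFinite hw₂
  have H := LC_of_finite f₁ g₁ hlc₁ hlc₂ y₁ (by
    intro y' hy'
    have h1 : g (j y') = z := by
      rw [← Scheme.Hom.comp_apply, ← hg₁, Scheme.Hom.comp_apply, hy', hy₁]
      rfl
    have h2 : j y' ∈ B := by
      rw [Scheme.Hom.comp_apply]
      exact ι_apply_mem B _
    have h3 : j y' = y := hB.eq h2 hyB h1 hyz
    exact j.isOpenEmbedding.injective h3)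
  rw [hy₁] at H
  refine LC.of_etale (isPullback_morphismRestrict (f ≫ g) N).flip (z' := ⟨z, hzN⟩) ?_ rfl
  rw [← hfg]
  convert H using 1
  ext x
  congr 2
  rw [← Scheme.Hom.comp_apply, ← Scheme.Hom.comp_apply, hf₁]

/-- Local constancy near `z` when all points over `z` are split. -/
theorem LC_of_split (f : X ⟶ Y) (g : Y ⟶ Z) [LocallyQuasiFinite f] [LocallyQuasiFinite g]
    {wf : X → ℤ} {wg : Y → ℤ} (hf : MoreMor.IsWeighting f wf) (hg : MoreMor.IsWeighting g wg)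
    [IsFinite (f ≫ g)] (z : Z) (h1 : ∀ x, g (f x) = z → Split (f ≫ g) x)
    (h2 : ∀ x, g (f x) = z → Split g (f x)) : LC (f ≫ g) (fun x => wf x * wg (f x)) z := by
  have hfin : ((f ≫ g) ⁻¹' {z}).Finite := (f ≫ g).finite_preimage_singleton z
  let ι := (f ≫ g) ⁻¹' {z}
  have : Finite ι := hfin
  have hι : ∀ i : ι, g (f i.1) = z := fun i => i.2
  choose A hA hAf hAu using fun x : ι => h1 x.1 (hι x)
  choose B hB hBf hBu using fun x : ι => h2 x.1 (hι x)
  have hAcl : ∀ i, IsClosed (A i : Set X) := fun i => MaxLocus.isClosed_of_isFinite (f ≫ g) (A i)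
  have huniq : ∀ (i : ι) (x : X), x ∈ A i → g (f x) = z → x = i.1 := by
    intro i x hx hxy
    have h1 := hAu i
    rw [show (f ≫ g) i.1 = z from i.2] at h1
    exact h1.eq hx (hA i) (by rw [Scheme.Hom.comp_apply, hxy]) i.2
  have hLC : ∀ i, LC ((A i).ι ≫ f ≫ g) (fun u => wf ((A i).ι u) * wg (f ((A i).ι u))) z := by
    intro i
    have hfi : IsFinite (((A i).ι ≫ f) ≫ g) := by rw [Category.assoc]; exact hAf i
    have h3 := LC_of_uniq ((A i).ι ≫ f) g (isWeighting_open hf (A i).ι) hg (B i) z (by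
      have := hBu i
      rwa [hι i] at this) (by
      intro u hu
      rw [Scheme.Hom.comp_apply] at hu ⊢
      rw [huniq i _ (ι_apply_mem _ _) hu]
      exact hB i)
    rw [Category.assoc] at h3
    exact h3
  choose N hzN hN using hLC
  have hcov : IsClosed ((f ≫ g) '' (⋃ i, (A i : Set X))ᶜ) :=
    (f ≫ g).isClosedMap _ (isOpen_iUnion fun i => (A i).2).isClosed_compl
  have hdis : ∀ i j : ι, IsClosed ((f ≫ g) '' ((A i : Set X) ∩ (A j : Set X))) := fun i j =>
    (f ≫ g).isClosedMap _ ((hAcl i).inter (hAcl j))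
  let N₀ : Set Z := ((f ≫ g) '' (⋃ i, (A i : Set X))ᶜ)ᶜ
  let N₁ : Set Z := ⋂ (i : ι), ⋂ (j : {j : ι // i ≠ j}), ((f ≫ g) '' ((A i : Set X) ∩ (A j : Set X)))ᶜ
  let N₂ : Set Z := ⋂ i, (N i : Set Z)
  have hN₀ : IsOpen N₀ := hcov.isOpen_compl
  have hN₁ : IsOpen N₁ := isOpen_iInter_of_finite fun i => isOpen_iInter_of_finite fun j =>
    (hdis i j).isOpen_compl
  have hN₂ : IsOpen N₂ := isOpen_iInter_of_finite fun i => (N i).2
  have hz₀ : z ∈ N₀ := by
    rintro ⟨x, hx, hxz⟩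
    exact hx (Set.mem_iUnion.mpr ⟨⟨x, hxz⟩, hA _⟩)
  have hz₁ : z ∈ N₁ := by
    refine Set.mem_iInter.mpr fun i => Set.mem_iInter.mpr fun j => ?_
    rintro ⟨x, ⟨hi, hj⟩, hx⟩
    rw [Scheme.Hom.comp_apply] at hx
    exact j.2 (Subtype.ext ((huniq i x hi hx).symm.trans (huniq j x hj hx)))
  have key : ∀ z' ∈ N₀ ∩ N₁, MoreMor.fibreIntegral (f ≫ g) (fun x => wf x * wg (f x)) z' =
      ∑ᶠ i, MoreMor.fibreIntegral ((A i).ι ≫ f ≫ g)
        (fun u => wf ((A i).ι u) * wg (f ((A i).ι u))) z' := by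
    rintro z' ⟨h0, h1⟩
    refine fibreIntegral_eq_sum (f ≫ g) _ A z' ?_ ?_
    · intro x hx
      by_contra h
      exact h0 ⟨x, fun hx' => h (Set.mem_iUnion.mp hx'), hx⟩
    · intro x i j hx hi hj
      by_contra h
      exact Set.mem_iInter.mp (Set.mem_iInter.mp h1 i) ⟨j, h⟩ ⟨x, ⟨hi, hj⟩, hx⟩
  refine ⟨⟨N₀ ∩ N₁ ∩ N₂, (hN₀.inter hN₁).inter hN₂⟩, ⟨⟨hz₀, hz₁⟩, Set.mem_iInter.mpr hzN⟩, ?_⟩
  rintro z' ⟨hz', hz''⟩
  rw [key z' hz', key z ⟨hz₀, hz₁⟩]
  exact finsum_congr fun i => hN i z' (Set.mem_iInter.mp hz'' i)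

/-- Local constancy of the fibre integral of a product, finite case. -/
theorem isLocallyConstant_comp (f : X ⟶ Y) (g : Y ⟶ Z) [LocallyQuasiFinite f]
    [LocallyQuasiFinite g] [LocallyOfFiniteType g]
    {wf : X → ℤ} {wg : Y → ℤ} (hf : MoreMor.IsWeighting f wf) (hg : MoreMor.IsWeighting g wg)
    [IsFinite (f ≫ g)] :
    IsLocallyConstant (MoreMor.fibreIntegral (f ≫ g) (fun x => wf x * wg (f x))) := by
  refine isLocallyConstant_of_LC _ _ fun z => ?_
  have hfin : ((f ≫ g) ⁻¹' {z}).Finite := (f ≫ g).finite_preimage_singleton z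
  obtain ⟨V₁, q₁, v₁, hq₁, hv₁, H₁⟩ := exists_splitOver (f ≫ g) z ((f ≫ g) ⁻¹' {z}) hfin
    (fun x hx => hx)
  obtain ⟨V₂, q₂, v₂, hq₂, hv₂, H₂⟩ := exists_splitOver g z (f '' ((f ≫ g) ⁻¹' {z}))
    (hfin.image f) (by
      rintro _ ⟨x, hx, rfl⟩
      have : (f ≫ g) x = z := hx
      rwa [Scheme.Hom.comp_apply] at this)
  obtain ⟨v, hv1, hv2⟩ := Scheme.Pullback.exists_preimage_pullback (f := q₁) (g := q₂) v₁ v₂
    (hv₁.trans hv₂.symm)
  let q : pullback q₁ q₂ ⟶ Z := pullback.fst q₁ q₂ ≫ q₁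
  have hqv : q v = z := by rw [Scheme.Hom.comp_apply, hv1, hv₁]
  have H₁' : SplitOver (f ≫ g) ((f ≫ g) ⁻¹' {z}) q v := H₁.refine (pullback.fst q₁ q₂) hv1
  have H₂' : SplitOver g (f '' ((f ≫ g) ⁻¹' {z})) q v :=
    H₂.refine' (pullback.snd q₁ q₂) hv2 _ pullback.condition.symm
  have hcY := IsPullback.of_hasPullback g q
  have hcX := IsPullback.of_hasPullback f (pullback.fst g q)
  have hcXY := hcX.paste_vert hcY
  refine LC.of_etale hcXY (z' := v) ?_ hqv
  have hfin' : IsFinite (pullback.snd f (pullback.fst g q) ≫ pullback.snd g q) :=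
    MorphismProperty.of_isPullback hcXY ‹_›
  have hpt : ∀ x, pullback.snd g q (pullback.snd f (pullback.fst g q) x) = v →
      pullback.fst f (pullback.fst g q) x ∈ (f ≫ g) ⁻¹' {z} := by
    intro x hx
    change (f ≫ g) (pullback.fst f (pullback.fst g q) x) = z
    rw [← Scheme.Hom.comp_apply, hcXY.w, Scheme.Hom.comp_apply]
    refine (congrArg q ?_).trans hqv
    rw [Scheme.Hom.comp_apply]
    exact hx
  have hw : (fun x => (fun x => wf x * wg (f x)) (pullback.fst f (pullback.fst g q) x)) =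
      (fun x => wf (pullback.fst f (pullback.fst g q) x) *
        wg (pullback.fst g q (pullback.snd f (pullback.fst g q) x))) := by
    ext x
    change wf (pullback.fst f (pullback.fst g q) x) *
      wg (f (pullback.fst f (pullback.fst g q) x)) = _
    rw [← Scheme.Hom.comp_apply, ← Scheme.Hom.comp_apply, pullback.condition]
  rw [hw]
  refine LC_of_split (pullback.snd f (pullback.fst g q)) (pullback.snd g q)
    (isWeighting_of_isPullback hcX hf) (isWeighting_of_isPullback hcY hg) v ?_ ?_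
  · intro x hx
    refine H₁'.split (g' := 𝟙 _) (h := pullback.fst f (pullback.fst g q)) ?_ x (hpt x hx) ?_
    · rw [Category.id_comp]
      exact hcXY
    · rw [Scheme.Hom.comp_apply]
      exact hx
  · intro x hx
    refine H₂'.split (g' := 𝟙 _) (h := pullback.fst g q) ?_ _ ?_ ?_
    · rw [Category.id_comp]
      exact hcY
    · refine ⟨_, hpt x hx, ?_⟩
      rw [← Scheme.Hom.comp_apply, pullback.condition, Scheme.Hom.comp_apply]
    · exact hx

/-- Composition of weightings. -/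
theorem isWeighting_comp (f : X ⟶ Y) (g : Y ⟶ Z) [LocallyQuasiFinite f]
    [LocallyQuasiFinite g] [LocallyOfFiniteType g]
    {wf : X → ℤ} {wg : Y → ℤ} (hf : MoreMor.IsWeighting f wf) (hg : MoreMor.IsWeighting g wg) :
    MoreMor.IsWeighting (f ≫ g) (fun x => wf x * wg (f x)) := by
  intro V q _ U hU
  have hcY := IsPullback.of_hasPullback g q
  let f' : pullback (f ≫ g) q ⟶ pullback g q :=
    pullback.lift (pullback.fst _ _ ≫ f) (pullback.snd _ _)
      (by rw [Category.assoc, pullback.condition])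
  have hf1 : f' ≫ pullback.fst g q = pullback.fst _ _ ≫ f := pullback.lift_fst _ _ _
  have hf2 : f' ≫ pullback.snd g q = pullback.snd _ _ := pullback.lift_snd _ _ _
  have hcX : IsPullback (pullback.fst (f ≫ g) q) f' f (pullback.fst g q) := by
    refine IsPullback.of_bot ?_ hf1.symm hcY
    rw [hf2]
    exact IsPullback.of_hasPullback (f ≫ g) q
  have hLQ : LocallyQuasiFinite f' := MorphismProperty.of_isPullback hcX ‹_›
  have hfin : IsFinite ((U.ι ≫ f') ≫ pullback.snd g q) := by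
    rw [Category.assoc, hf2]; exact hU
  have h1 := isLocallyConstant_comp (U.ι ≫ f') (pullback.snd g q)
    (isWeighting_open (isWeighting_of_isPullback hcX hf) U.ι) (isWeighting_of_isPullback hcY hg)
  rw [Category.assoc, hf2] at h1
  convert h1 using 3 with x
  change wf (pullback.fst (f ≫ g) q (U.ι x)) * wg (f (pullback.fst (f ≫ g) q (U.ι x))) = _
  congr 2
  rw [← Scheme.Hom.comp_apply, ← Scheme.Hom.comp_apply, ← Scheme.Hom.comp_apply,
    Category.assoc, hf1]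

end Groth.Agent.Old.H15.WeightComp
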